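import Cfsg.Agent.Lib.H39.DA0

/-!
# S3219, piece BA2: perfect normal subgroups, nonsolvability
-/

set_option autoImplicit false
set_option linter.unusedVariables false
set_option linter.unusedSectionVars false
set_option linter.style.haveILetI false

namespace H59.BA2

open Subgroup

theorem exists_perfect {G : Type*} [Group G] [Finite G] (hns : ¬ Group.IsSolvable G) :
    ∃ R : Subgroup G, R.Normal ∧ R ≠ ⊥ ∧ Group.IsPerfect R := by
  classical
  obtain ⟨n, hn⟩ : ∃ n, ∀ m, Nat.card (derivedSeries G n) ≤ Nat.card (derivedSeries G m) := by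
    have hex : ∃ c, ∃ n, Nat.card (derivedSeries G n) = c := ⟨_, 0, rfl⟩
    obtain ⟨n, hn⟩ := Nat.find_spec hex
    exact ⟨n, fun m => by rw [hn]; exact Nat.find_min' hex ⟨m, rfl⟩⟩
  have hnorm : (derivedSeries G n).Normal := derivedSeries_normal G n
  have hle : derivedSeries G (n + 1) ≤ derivedSeries G n := by
    rw [derivedSeries_succ]
    exact Subgroup.commutator_le_left _ _
  have heq : derivedSeries G (n + 1) = derivedSeries G n := Subgroup.eq_of_le_of_card_ge hle (hn (n + 1))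
  refine ⟨derivedSeries G n, hnorm, fun h => hns ⟨⟨n, h⟩⟩, ?_⟩
  rw [Subgroup.isPerfect_iff]
  rw [derivedSeries_succ] at heq
  exact heq

theorem not_solvable {G Ω : Type*} [Group G] [Finite G] [MulAction G Ω] [Finite Ω] (h : H39.DA.TT G Ω)
    (ho : Odd (Nat.card Ω)) (hO : ∀ N : Subgroup G, N.Normal → Odd (Nat.card N) → N = ⊥) :
    ¬ Group.IsSolvable G := by
  classical
  intro hs
  have f2 : Fact (Nat.Prime 2) := ⟨Nat.prime_two⟩
  obtain ⟨a, b, hab⟩ := h.two
  have htr : ∀ x y : Ω, ∃ g : G, g • x = y := by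
    intro x y
    have hex : ∀ z : Ω, ∃ w : Ω, z ≠ w := by
      intro z
      by_cases hz : z = a
      · exact ⟨b, by rw [hz]; exact hab⟩
      · exact ⟨a, hz⟩
    obtain ⟨x', hx'⟩ := hex x
    obtain ⟨y', hy'⟩ := hex y
    obtain ⟨g, hg, -⟩ := h.tr x x' y y' hx' hy'
    exact ⟨g, hg⟩
  have hnt : (⊤ : Subgroup G) ≠ ⊥ := by
    intro h1
    obtain ⟨g, hg⟩ := htr a b
    have h2 : g ∈ (⊤ : Subgroup G) := trivial
    rw [h1, mem_bot] at h2
    rw [h2, one_smul] at hg
    exact hab hg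
  -- the last nontrivial term of the derived series
  obtain ⟨A, hAn, hA1, hAc⟩ : ∃ A : Subgroup G, A.Normal ∧ A ≠ ⊥ ∧ ∀ x ∈ A, ∀ y ∈ A, x * y = y * x := by
    have hex : ∃ n, derivedSeries G n = ⊥ := hs.solvable
    have h1 : Nat.find hex ≠ 0 := by
      intro h0
      have := Nat.find_spec hex
      rw [h0] at this
      exact hnt this
    obtain ⟨m, hm⟩ := Nat.exists_eq_succ_of_ne_zero h1
    refine ⟨derivedSeries G m, derivedSeries_normal G m, Nat.find_min hex (by omega), ?_⟩
    have h2 := Nat.find_spec hex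
    rw [hm, Nat.succ_eq_add_one, derivedSeries_succ, Subgroup.commutator_eq_bot_iff_le_centralizer] at h2
    intro x hx y hy
    exact (mem_centralizer_iff.1 (h2 hx) y hy).symm
  let E : Subgroup G :=
    { carrier := {x | x ∈ A ∧ x * x = 1}
      one_mem' := ⟨A.one_mem, one_mul 1⟩
      mul_mem' := fun {x y} hx hy => ⟨A.mul_mem hx.1 hy.1, by
        have h3 := hAc x hx.1 y hy.1
        calc x * y * (x * y) = x * (y * x) * y := by group
          _ = x * (x * y) * y := by rw [h3]
          _ = (x * x) * (y * y) := by group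
          _ = 1 := by rw [hx.2, hy.2, one_mul]⟩
      inv_mem' := fun {x} hx => ⟨A.inv_mem hx.1, by
        rw [← mul_inv_rev, hx.2, inv_one]⟩ }
  have hEn : E.Normal := ⟨fun x hx g => ⟨hAn.conj_mem x hx.1 g, by
    calc g * x * g⁻¹ * (g * x * g⁻¹) = g * (x * x) * g⁻¹ := by group
      _ = 1 := by rw [hx.2]; group⟩⟩
  have hE1 : E ≠ ⊥ := by
    intro hE
    have hodd : Odd (Nat.card A) := by
      rw [← Nat.not_even_iff_odd, even_iff_two_dvd]
      intro h2
      obtain ⟨⟨x, hxA⟩, hx⟩ := exists_prime_orderOf_dvd_card' 2 h2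
      rw [Subgroup.orderOf_mk] at hx
      have h3 : x ∈ E := ⟨hxA, by rw [← pow_two, ← hx]; exact pow_orderOf_eq_one x⟩
      rw [hE, mem_bot] at h3
      rw [h3, orderOf_one] at hx
      omega
    exact hA1 (hO A hAn hodd)
  have hEp : IsPGroup 2 E := fun x => ⟨1, by
    rw [pow_one, pow_two]
    exact Subtype.ext x.2.2⟩
  obtain ⟨x0, hx0⟩ := hEp.nonempty_fixed_point_of_prime_not_dvd_card Ω (by
    intro h2
    rw [← even_iff_two_dvd] at h2
    exact (Nat.not_even_iff_odd.2 ho) h2)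
  apply hE1
  rw [Subgroup.eq_bot_iff_forall]
  intro e he
  apply h.faith
  intro x
  obtain ⟨g, rfl⟩ := htr x0 x
  have h4 : g⁻¹ * e * g ∈ E := by
    have := hEn.conj_mem e he g⁻¹
    rwa [inv_inv] at this
  have h5 : (g⁻¹ * e * g) • x0 = x0 := hx0 ⟨_, h4⟩
  calc e • g • x0 = g • ((g⁻¹ * e * g) • x0) := by
        rw [smul_smul, smul_smul]; congr 1; group
    _ = g • x0 := by rw [h5]

end H59.BA2
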