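import Mathlib

/-!
# Numerics for S3219, piece BA2
-/

set_option autoImplicit false
set_option linter.unusedVariables false
set_option linter.unusedSectionVars false
set_option linter.style.haveILetI false

namespace H59.BA2

open Subgroup Pointwise

universe u v

theorem num_a7 {n f : ℕ} (hf : f % 4 = 3) (hn : n = f * (2 * f - 1)) (hd : n ∣ 2520) : n = 15 := by
  have h1 : n ≤ 2520 := Nat.le_of_dvd (by norm_num) hd
  have h2 : f ≤ 35 := by
    by_contra hcon
    push Not at hcon
    have : 36 * 71 ≤ f * (2 * f - 1) := Nat.mul_le_mul (by omega) (by omega)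
    omega
  obtain ⟨c, hc⟩ := hd
  have h3 : f = 3 ∨ f = 7 ∨ f = 11 ∨ f = 15 ∨ f = 19 ∨ f = 23 ∨ f = 27 ∨ f = 31 ∨ f = 35 := by omega
  rcases h3 with rfl | rfl | rfl | rfl | rfl | rfl | rfl | rfl | rfl
  · rw [hn]
  all_goals (exfalso; norm_num at hn; rw [hn] at hc; omega)

theorem num_168 {n f : ℕ} (hf : f % 4 = 3) (hn : n = f * (2 * f - 1)) (hd : n ∣ 168) : False := by
  have h1 := num_a7 hf hn (hd.trans (by norm_num))
  rw [h1] at hd
  norm_num at hd

variable {G : Type u} [Group G] [Finite G]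

/-- case `A_7` -/
theorem case_a7 (R : Subgroup G) (e : R ≃* alternatingGroup (Fin 7)) {n f : ℕ} (hf : f % 4 = 3)
    (hn : n = f * (2 * f - 1)) (hd : n ∣ Nat.card R) (hG : Nat.card G = 12 * (n * (n - 1))) :
    n = 15 ∧ R = ⊤ ∧ Nonempty (G ≃* alternatingGroup (Fin 7)) := by
  have hR : Nat.card R = 2520 := by
    rw [Nat.card_congr e.toEquiv, nat_card_alternatingGroup, Nat.card_eq_fintype_card, Fintype.card_fin]
    norm_num [Nat.factorial]
  rw [hR] at hd
  have h1 := num_a7 hf hn hd
  subst h1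
  have h2 : R = ⊤ := Subgroup.eq_top_of_card_eq R (by rw [hR, hG])
  refine ⟨rfl, h2, ?_⟩
  subst h2
  exact ⟨Subgroup.topEquiv.symm.trans e⟩

theorem cong {x : G} (hx : orderOf x = 7) (Q : Subgroup G) (hxQ : x ∈ normalizer (Q : Set G)) :
    Nat.card Q ≡ Nat.card (Q ⊓ centralizer ({x} : Set G) : Subgroup G) [MOD 7] := by
  have f7 : Fact (Nat.Prime 7) := ⟨by norm_num⟩
  have hp : IsPGroup 7 (zpowers x) := IsPGroup.of_card (n := 1) (by rw [Nat.card_zpowers, hx, pow_one])
  have hN : ∀ y : zpowers x, ∀ q : Q, (y : G) * q * (y : G)⁻¹ ∈ Q := fun y q =>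
    (mem_normalizer_iff.1 ((zpowers_le.2 hxQ) y.2) q).1 q.2
  letI : MulAction (zpowers x) Q :=
    { smul := fun y q => ⟨(y : G) * q * (y : G)⁻¹, hN y q⟩
      one_smul := fun q => Subtype.ext (by
        show ((1 : zpowers x) : G) * q * ((1 : zpowers x) : G)⁻¹ = q
        simp)
      mul_smul := fun y z q => Subtype.ext (by
        show ((y * z : zpowers x) : G) * q * ((y * z : zpowers x) : G)⁻¹ =
          (y : G) * ((z : G) * q * (z : G)⁻¹) * (y : G)⁻¹
        rw [Subgroup.coe_mul, mul_inv_rev]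
        group) }
  have h1 := hp.card_modEq_card_fixedPoints (Q : Type u)
  have h2 : Nat.card (MulAction.fixedPoints (zpowers x) Q) =
      Nat.card (Q ⊓ centralizer ({x} : Set G) : Subgroup G) := by
    refine Nat.card_congr ⟨fun q => ⟨(q : Q), (q : Q).2, ?_⟩, fun q => ⟨⟨q, q.2.1⟩, ?_⟩, fun q => rfl, fun q => rfl⟩
    · have h3 := q.2 ⟨x, mem_zpowers x⟩
      have h4 : x * ((q : Q) : G) * x⁻¹ = ((q : Q) : G) := congrArg Subtype.val h3
      show ((q : Q) : G) ∈ centralizer ({x} : Set G)
      rw [mem_centralizer_singleton_iff]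
      calc ((q : Q) : G) * x = x * ((q : Q) : G) * x⁻¹ * x := by rw [h4]
        _ = x * ((q : Q) : G) := by group
    · rintro ⟨y, hy⟩
      obtain ⟨k, rfl⟩ := mem_zpowers_iff.1 hy
      apply Subtype.ext
      have h3 : (q : G) * x = x * (q : G) := mem_centralizer_singleton_iff.1 q.2.2
      have h4 : x ^ k * (q : G) = (q : G) * x ^ k := ((show Commute x (q : G) from h3.symm).zpow_left k).eq
      show x ^ k * (q : G) * (x ^ k)⁻¹ = q
      rw [h4, mul_inv_cancel_right]
  rw [h2] at h1
  exact h1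

theorem exists_seven (R : Subgroup G) [R.Normal] (hR : Nat.card R = 360) (hG : Nat.card G = 2520) {p : ℕ}
    [Fact p.Prime] (P : Sylow p R) :
    ∃ x : G, orderOf x = 7 ∧ x ∈ normalizer (((P : Subgroup R).map R.subtype : Subgroup G) : Set G) := by
  have f7 : Fact (Nat.Prime 7) := ⟨by norm_num⟩
  set N := normalizer (((P : Subgroup R).map R.subtype : Subgroup G) : Set G) with hN
  have h1 : N ⊔ R = ⊤ := Sylow.normalizer_sup_eq_top P
  have h2 : Nat.card (R.subgroupOf N) * R.relIndex N = Nat.card N := (R.subgroupOf N).card_mul_index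
  have h3 : R.relIndex N = 7 := by
    have h1' : R ⊔ N = ⊤ := by rw [sup_comm]; exact h1
    rw [← Subgroup.relIndex_sup_right, sup_comm, h1', Subgroup.relIndex_top_right]
    have := R.card_mul_index
    rw [hR, hG] at this
    omega
  have h4 : 7 ∣ Nat.card N := by
    rw [← h2, h3]; exact dvd_mul_left _ _
  obtain ⟨⟨x, hxN⟩, hx⟩ := exists_prime_orderOf_dvd_card' 7 h4
  rw [Subgroup.orderOf_mk] at hx
  exact ⟨x, hx, hxN⟩

theorem cent_card {x : G} (hx : orderOf x = 7) {p k : ℕ} [hp : Fact p.Prime] (Q : Subgroup G) (hQ : Nat.card Q = p ^ k)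
    (hxQ : x ∈ normalizer (Q : Set G))
    (h : ∀ j ≤ k, p ^ k ≡ p ^ j [MOD 7] → p ^ j = p ^ k) : Nat.card Q ∣ Nat.card (centralizer ({x} : Set G)) := by
  have h1 := cong hx Q hxQ
  have h2 : Nat.card (Q ⊓ centralizer ({x} : Set G) : Subgroup G) ∣ p ^ k := by
    rw [← hQ]; exact Subgroup.card_dvd_of_le inf_le_left
  obtain ⟨j, hj, hj'⟩ := (Nat.dvd_prime_pow hp.out).1 h2
  rw [hQ, hj'] at h1
  have h3 := h j hj h1
  have h4 : (Q ⊓ centralizer ({x} : Set G) : Subgroup G) = Q := Subgroup.eq_of_le_of_card_ge inf_le_left (by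
    rw [hj', h3, hQ])
  rw [← h4]
  exact Subgroup.card_dvd_of_le inf_le_right

theorem card_cent_conj' (t g : G) : Nat.card (centralizer ({g * t * g⁻¹} : Set G)) =
    Nat.card (centralizer ({t} : Set G)) := by
  have : centralizer ({g * t * g⁻¹} : Set G) = (centralizer ({t} : Set G)).map (MulAut.conj g).toMonoidHom := by
    ext x
    rw [mem_centralizer_singleton_iff, Subgroup.mem_map]
    constructor
    · intro hx
      refine ⟨g⁻¹ * x * g, ?_, ?_⟩
      · rw [mem_centralizer_singleton_iff]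
        calc g⁻¹ * x * g * t = g⁻¹ * (x * (g * t * g⁻¹)) * g := by group
          _ = g⁻¹ * (g * t * g⁻¹ * x) * g := by rw [hx]
          _ = t * (g⁻¹ * x * g) := by group
      · show g * (g⁻¹ * x * g) * g⁻¹ = x
        group
    · rintro ⟨y, hy, rfl⟩
      have hy' : y * t = t * y := mem_centralizer_singleton_iff.1 hy
      show (g * y * g⁻¹) * (g * t * g⁻¹) = (g * t * g⁻¹) * (g * y * g⁻¹)
      calc (g * y * g⁻¹) * (g * t * g⁻¹) = g * (y * t) * g⁻¹ := by group
        _ = g * (t * y) * g⁻¹ := by rw [hy']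
        _ = (g * t * g⁻¹) * (g * y * g⁻¹) := by group
  rw [this]
  exact Subgroup.card_map_of_injective (MulAut.conj g).injective

/-- centralizers of elements of order 7 have the same order (Sylow 7-subgroups of order 7) -/
theorem card_cent_eq (hG : Nat.card G = 2520) {x y : G} (hx : orderOf x = 7) (hy : orderOf y = 7) :
    Nat.card (centralizer ({x} : Set G)) = Nat.card (centralizer ({y} : Set G)) := by
  have f7 : Fact (Nat.Prime 7) := ⟨by norm_num⟩
  have hs : ∀ z : G, orderOf z = 7 → ∃ P : Sylow 7 G, (P : Subgroup G) = zpowers z := by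
    intro z hz
    have hp : IsPGroup 7 (zpowers z) := IsPGroup.of_card (n := 1) (by rw [Nat.card_zpowers, hz, pow_one])
    obtain ⟨P, hP⟩ := hp.exists_le_sylow
    refine ⟨P, (Subgroup.eq_of_le_of_card_ge hP ?_).symm⟩
    rw [Nat.card_zpowers, hz, P.card_eq_multiplicity, hG]
    have : Nat.factorization 2520 7 = 1 := by
      rw [show (2520 : ℕ) = 7 ^ 1 * 360 by norm_num, Nat.factorization_mul (by norm_num) (by norm_num),
        Finsupp.add_apply, Nat.Prime.factorization_pow (by norm_num), Finsupp.single_eq_same,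
        Nat.factorization_eq_zero_of_not_dvd (by norm_num)]
    rw [this]; norm_num
  obtain ⟨P, hP⟩ := hs x hx
  obtain ⟨Q, hQ⟩ := hs y hy
  obtain ⟨g, hg⟩ := MulAction.exists_smul_eq G P Q
  have h1 : y ∈ ((g • P : Sylow 7 G) : Subgroup G) := by rw [hg, hQ]; exact mem_zpowers y
  have h2 : g⁻¹ * y * g ∈ (P : Subgroup G) := by
    have h3 : y ∈ MulAut.conj g • (P : Subgroup G) := h1
    rw [Subgroup.mem_pointwise_smul_iff_inv_smul_mem, ← map_inv, MulAut.smul_def, MulAut.conj_apply,
      inv_inv] at h3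
    exact h3
  have hcz : ∀ z w : G, orderOf w = 7 → w ∈ zpowers z → orderOf z = 7 →
      centralizer ({w} : Set G) = centralizer ({z} : Set G) := by
    intro z w hw hwz hz
    have h3 : zpowers w = zpowers z := Subgroup.eq_of_le_of_card_ge (zpowers_le.2 hwz) (by
      rw [Nat.card_zpowers, Nat.card_zpowers, hw, hz])
    have key : ∀ u v : G, u ∈ zpowers v → centralizer ({v} : Set G) ≤ centralizer ({u} : Set G) := by
      intro u v huv c hc
      obtain ⟨k, rfl⟩ := mem_zpowers_iff.1 huv
      rw [mem_centralizer_singleton_iff] at hc ⊢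
      exact ((show Commute c v from hc).zpow_right k).eq
    exact le_antisymm (key z w (by rw [h3]; exact mem_zpowers z)) (key w z hwz)
  have h4 : orderOf (g⁻¹ * y * g) = 7 := by
    have h6 := (MulAut.conj g⁻¹).orderOf_eq y
    rw [MulAut.conj_apply, inv_inv] at h6
    rw [h6, hy]
  rw [hP] at h2
  rw [← hcz x (g⁻¹ * y * g) h4 h2 hx]
  have h5 := card_cent_conj' y g⁻¹
  rw [inv_inv] at h5
  exact h5

theorem case_a6 (R : Subgroup G) [R.Normal] (hR : Nat.card R = 360) (hCR : centralizer (R : Set G) = ⊥)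
    (hG : Nat.card G = 2520)
    (hS : ∀ S : Sylow 2 G, ¬ ∀ a ∈ (S : Subgroup G), ∀ b ∈ (S : Subgroup G), a * b = b * a) : False := by
  have f2 : Fact (Nat.Prime 2) := ⟨Nat.prime_two⟩
  have f3 : Fact (Nat.Prime 3) := ⟨Nat.prime_three⟩
  have f5 : Fact (Nat.Prime 5) := ⟨by norm_num⟩
  have hcs : ∀ (p a m : ℕ) [Fact p.Prime], 360 = p ^ a * m → ¬ p ∣ m → ∀ P : Sylow p R,
      Nat.card ((P : Subgroup R).map R.subtype) = p ^ a := by
    intro p a m hp h1 h2 P
    have hm0 : m ≠ 0 := by rintro rfl; exact h2 (dvd_zero p)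
    rw [Subgroup.card_map_of_injective R.subtype_injective, P.card_eq_multiplicity, hR, h1,
      Nat.factorization_mul (pow_ne_zero _ hp.out.ne_zero) hm0,
      Nat.Prime.factorization_pow hp.out, Finsupp.add_apply,
      Nat.factorization_eq_zero_of_not_dvd h2, Finsupp.single_eq_same, add_zero]
  obtain ⟨P2⟩ : Nonempty (Sylow 2 R) := inferInstance
  obtain ⟨P3⟩ : Nonempty (Sylow 3 R) := inferInstance
  obtain ⟨P5⟩ : Nonempty (Sylow 5 R) := inferInstance
  obtain ⟨x2, hx2, hxN2⟩ := exists_seven R hR hG P2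
  obtain ⟨x3, hx3, hxN3⟩ := exists_seven R hR hG P3
  obtain ⟨x5, hx5, hxN5⟩ := exists_seven R hR hG P5
  have c2 := hcs 2 3 45 (by norm_num) (by norm_num) P2
  have c3 := hcs 3 2 40 (by norm_num) (by norm_num) P3
  have c5 := hcs 5 1 72 (by norm_num) (by norm_num) P5
  have d5 : 5 ∣ Nat.card (centralizer ({x2} : Set G)) := by
    rw [card_cent_eq hG hx2 hx5]
    have := cent_card hx5 _ c5 hxN5 (by
      intro j hj hj'
      interval_cases j
      · exfalso; revert hj'; decide
      · rfl)
    rwa [c5] at this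
  have d3 : 9 ∣ Nat.card (centralizer ({x2} : Set G)) := by
    rw [card_cent_eq hG hx2 hx3]
    have := cent_card hx3 _ c3 hxN3 (by
      intro j hj hj'
      interval_cases j
      · exfalso; revert hj'; decide
      · exfalso; revert hj'; decide
      · rfl)
    rwa [c3] at this
  have d7 : 7 ∣ Nat.card (centralizer ({x2} : Set G)) := by
    rw [← hx2, ← Nat.card_zpowers]
    exact Subgroup.card_dvd_of_le (zpowers_le.2 (mem_centralizer_singleton_iff.2 rfl))
  have d2 : 8 ∣ Nat.card (centralizer ({x2} : Set G)) := by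
    set Q := ((P2 : Subgroup R).map R.subtype : Subgroup G) with hQ
    have hQc : Nat.card Q = 8 := by rw [c2]; norm_num
    have hQp : IsPGroup 2 Q := IsPGroup.of_card c2
    -- `Q` is not abelian
    obtain ⟨T, hT⟩ := hQp.exists_le_sylow
    have hTc : Nat.card (T : Subgroup G) = 8 := by
      rw [T.card_eq_multiplicity, hG]
      have : Nat.factorization 2520 2 = 3 := by
        rw [show (2520 : ℕ) = 2 ^ 3 * 315 by norm_num, Nat.factorization_mul (by norm_num) (by norm_num),
          Finsupp.add_apply, Nat.Prime.factorization_pow (by norm_num), Finsupp.single_eq_same,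
          Nat.factorization_eq_zero_of_not_dvd (by norm_num)]
      rw [this]; norm_num
    have hQT : Q = (T : Subgroup G) := Subgroup.eq_of_le_of_card_ge hT (by rw [hTc, hQc])
    have hna := hS T
    rw [← hQT] at hna
    set Z : Subgroup G := Q ⊓ centralizer (Q : Set G) with hZ
    have hxZ : x2 ∈ normalizer (Z : Set G) := by
      have key : ∀ y ∈ normalizer (Q : Set G), ∀ z ∈ Z, y * z * y⁻¹ ∈ Z := by
        intro y hy z hz
        refine ⟨(mem_normalizer_iff.1 hy z).1 hz.1, ?_⟩
        show y * z * y⁻¹ ∈ centralizer (Q : Set G)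
        rw [mem_centralizer_iff]
        intro q hq
        have h1 : y⁻¹ * q * y ∈ Q := by
          have := (mem_normalizer_iff.1 (inv_mem hy) q).1 hq
          rwa [inv_inv] at this
        have h2 := mem_centralizer_iff.1 hz.2 _ h1
        calc q * (y * z * y⁻¹) = y * (y⁻¹ * q * y * z) * y⁻¹ := by group
          _ = y * (z * (y⁻¹ * q * y)) * y⁻¹ := by rw [h2]
          _ = y * z * y⁻¹ * q := by group
      rw [mem_normalizer_iff]
      intro z
      constructor
      · exact key x2 hxN2 z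
      · intro hz
        have := key x2⁻¹ (inv_mem hxN2) _ hz
        have e : x2⁻¹ * (x2 * z * x2⁻¹) * (x2⁻¹)⁻¹ = z := by group
        rwa [e] at this
    have hZQ : Nat.card Z ∣ 8 := by rw [← hQc]; exact Subgroup.card_dvd_of_le inf_le_left
    have hZ8 : Nat.card Z ≠ 8 := by
      intro h
      apply hna
      have h1 : Z = Q := Subgroup.eq_of_le_of_card_ge inf_le_left (by rw [h, hQc])
      intro a ha b hb
      have ha' : a ∈ Z := by rw [h1]; exact ha
      exact (mem_centralizer_iff.1 ha'.2 b hb).symm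
    have hZ1 : Nat.card Z ≠ 1 := by
      intro h
      haveI : Nontrivial Q := by
        rw [← Finite.one_lt_card_iff_nontrivial, hQc]; norm_num
      have h1 := hQp.center_nontrivial
      obtain ⟨⟨⟨z, hzQ⟩, hz⟩, hz1⟩ := exists_ne (1 : center Q)
      have h2 : z ∈ Z := by
        refine ⟨hzQ, ?_⟩
        show z ∈ centralizer (Q : Set G)
        rw [mem_centralizer_iff]
        intro q hq
        exact congrArg Subtype.val (mem_center_iff.1 hz ⟨q, hq⟩)
      have h3 : Z = ⊥ := Subgroup.card_eq_one.1 h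
      rw [h3, mem_bot] at h2
      subst h2
      exact hz1 rfl
    have hZc : Nat.card Z = 2 ∨ Nat.card Z = 4 := by
      have : Nat.card Z ≤ 8 := Nat.le_of_dvd (by norm_num) hZQ
      obtain ⟨c, hc⟩ := hZQ
      generalize Nat.card Z = z at *
      interval_cases z <;> omega
    have k1 := cong hx2 Z hxZ
    have k2 := cong hx2 Q hxN2
    have k3 : Nat.card (Q ⊓ centralizer ({x2} : Set G) : Subgroup G) ∣ 8 := by
      rw [← hQc]; exact Subgroup.card_dvd_of_le inf_le_left
    have k4 : Nat.card (Z ⊓ centralizer ({x2} : Set G) : Subgroup G) ≤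
        Nat.card (Q ⊓ centralizer ({x2} : Set G) : Subgroup G) :=
      Subgroup.card_le_of_le (inf_le_inf_right _ inf_le_left)
    rw [hQc] at k2
    have k5 : Nat.card (Q ⊓ centralizer ({x2} : Set G) : Subgroup G) = 8 := by
      have k6 : Nat.card (Q ⊓ centralizer ({x2} : Set G) : Subgroup G) ≤ 8 := Nat.le_of_dvd (by norm_num) k3
      have k2' : 8 % 7 = Nat.card (Q ⊓ centralizer ({x2} : Set G) : Subgroup G) % 7 := k2
      have k1' : Nat.card Z % 7 = Nat.card (Z ⊓ centralizer ({x2} : Set G) : Subgroup G) % 7 := k1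
      have k7 : Nat.card (Q ⊓ centralizer ({x2} : Set G) : Subgroup G) = 1 ∨
          Nat.card (Q ⊓ centralizer ({x2} : Set G) : Subgroup G) = 8 := by omega
      rcases k7 with k7 | k7
      · exfalso
        rw [k7] at k4
        rcases hZc with k8 | k8 <;> rw [k8] at k1' <;> omega
      · exact k7
    rw [← k5]
    exact Subgroup.card_dvd_of_le inf_le_right
  have e1 : Nat.Coprime 8 9 := by norm_num
  have e2 := e1.mul_dvd_of_dvd_of_dvd d2 d3
  have e3 : Nat.Coprime (8 * 9) 5 := by norm_num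
  have e4 := e3.mul_dvd_of_dvd_of_dvd e2 d5
  have e5 : Nat.Coprime (8 * 9 * 5) 7 := by norm_num
  have e6 := e5.mul_dvd_of_dvd_of_dvd e4 d7
  have e7 : centralizer ({x2} : Set G) = ⊤ := by
    apply Subgroup.eq_top_of_le_card
    rw [hG]
    exact Nat.le_of_dvd Nat.card_pos e6
  have e8 : x2 ∈ centralizer (R : Set G) := by
    rw [mem_centralizer_iff]
    intro r _
    have : r ∈ centralizer ({x2} : Set G) := by rw [e7]; trivial
    exact mem_centralizer_singleton_iff.1 this
  rw [hCR, mem_bot] at e8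
  rw [e8, orderOf_one] at hx2
  omega

/-- case `|R| = 360` -/
theorem case_360 (R : Subgroup G) [R.Normal] (hR : Nat.card R = 360) (hCR : centralizer (R : Set G) = ⊥)
    {n f : ℕ} (hf : f % 4 = 3) (hn : n = f * (2 * f - 1)) (hd : n ∣ Nat.card R)
    (hG : Nat.card G = 12 * (n * (n - 1)))
    (hS : ∀ S : Sylow 2 G, ¬ ∀ a ∈ (S : Subgroup G), ∀ b ∈ (S : Subgroup G), a * b = b * a) : False := by
  rw [hR] at hd
  have h1 := num_a7 hf hn (hd.trans (by norm_num))
  subst h1
  exact case_a6 R hR hCR (by rw [hG]) hS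

/-- case `|R| = 168` -/
theorem case_168 (R : Subgroup G) (hR : Nat.card R = 168)
    {n f : ℕ} (hf : f % 4 = 3) (hn : n = f * (2 * f - 1)) (hd : n ∣ Nat.card R) : False := by
  rw [hR] at hd
  exact num_168 hf hn hd

end H59.BA2
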