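import Cfsg.Agent.Lib.H59.DBA2n
import Cfsg.Agent.Lib.H98.DicksonPGL

/-!
# Orders of `PSL_2(7)` and `PSL_2(9)`
-/

set_option autoImplicit false

namespace H59.BA2

theorem card_psl7 {F : Type*} [Field F] [Fintype F] (h : Fintype.card F = 7) :
    Nat.card (Matrix.ProjectiveSpecialLinearGroup (Fin 2) F) = 168 := by
  have h3 := H98.DicksonPGL.card_psl_eq F
  rw [Nat.card_eq_fintype_card (α := F), h] at h3
  have h4 : Nat.gcd 2 (7 - 1) = 2 := by decide
  rw [h4] at h3
  omega

theorem card_psl9 {F : Type*} [Field F] [Fintype F] (h : Fintype.card F = 9) :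
    Nat.card (Matrix.ProjectiveSpecialLinearGroup (Fin 2) F) = 360 := by
  have h3 := H98.DicksonPGL.card_psl_eq F
  rw [Nat.card_eq_fintype_card (α := F), h] at h3
  have h4 : Nat.gcd 2 (9 - 1) = 2 := by decide
  rw [h4] at h3
  omega

end H59.BA2
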