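import Mathlib
import Cfsg.Agent.Lib.H59.EarlyTwo
import Cfsg.Agent.S0215
import Cfsg.Agent.Lib.H5.InvTools
import Cfsg.Agent.Lib.H21.Order168d

/-! Maximal 2-locals with cyclic `Z(O₂(M))` and the Z*-theorem. -/

set_option autoImplicit false
set_option linter.unusedSectionVars false
set_option linter.style.haveILetI false
open Subgroup Cfsg H59.CharP
open scoped Pointwise

namespace H59.EarlyTwo

universe u
variable {G : Type u} [Group G] [Finite G]

theorem mem_zpowers_two {z : G} (hz : orderOf z = 2) {x : G} (hx : x ∈ zpowers z) : x = 1 ∨ x = z := by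
  classical
  rw [(isOfFinOrder_of_finite z).mem_zpowers_iff_mem_range_orderOf, hz] at hx
  obtain ⟨k, hk, rfl⟩ := Finset.mem_image.1 hx
  rw [Finset.mem_range] at hk
  interval_cases k
  · left; exact pow_zero z
  · right; exact pow_one z

theorem normalizer_zpowers_invol {z : G} (hz : orderOf z = 2) :
    normalizer ((zpowers z : Subgroup G) : Set G) = centralizer ({z} : Set G) := by
  have hz1 : z ≠ 1 := by rintro rfl; simp at hz
  ext g
  rw [mem_centralizer_singleton_iff]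
  constructor
  · intro hg
    have h1 := (mem_normalizer_iff.1 hg z).1 (mem_zpowers z)
    rcases mem_zpowers_two hz h1 with h | h
    · exfalso
      apply hz1
      have : z = g⁻¹ * (g * z * g⁻¹) * g := by group
      rw [this, h]; group
    · exact mul_inv_eq_iff_eq_mul.1 h
  · intro hg
    apply H75.Basic.mem_normalizer_of_conj_mem
    intro x hx
    rcases mem_zpowers_two hz hx with h | h
    · rw [h, mul_one, mul_inv_cancel]; exact one_mem _
    · rw [h, hg, mul_inv_cancel_right]; exact mem_zpowers z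

theorem isTwoLocal_centralizer {z : G} (hz : orderOf z = 2) : IsTwoLocal (centralizer ({z} : Set G)) := by
  have hz1 : z ≠ 1 := by rintro rfl; simp at hz
  refine ⟨zpowers z, H5.PLocal.isPGroup_zpowers_involution hz, ?_, (normalizer_zpowers_invol hz).symm⟩
  intro h
  exact hz1 (zpowers_eq_bot.1 h)

theorem exists_maximal {N : Subgroup G} (hN : IsTwoLocal N) : ∃ M, N ≤ M ∧ IsMaximalTwoLocal M := by
  obtain ⟨M, hNM, hM⟩ := Set.Finite.exists_le_maximal
    (s := {K : Subgroup G | IsTwoLocal K}) (Set.toFinite _) hN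
  exact ⟨M, hNM, hM.prop, fun K hK hMK => le_antisymm (hM.le_of_ge hK hMK) hMK⟩

/-- the unique involution of the centre of a Sylow 2-subgroup -/
def K (z : G) : Prop := orderOf z = 2 ∧ ∃ P : Sylow 2 G, z ∈ (P : Subgroup G) ∧
  ∀ x ∈ (P : Subgroup G), x * z = z * x

theorem K.conj {z : G} (h : K z) (g : G) : K (g * z * g⁻¹) := by
  obtain ⟨h2, P, hzP, hc⟩ := h
  refine ⟨by rw [H5.Dihedral.orderOf_conj, h2], g • P, ?_, ?_⟩
  · rw [Sylow.coe_subgroup_smul]
    exact Subgroup.smul_mem_pointwise_smul z (MulAut.conj g) _ hzP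
  · intro x hx
    rw [Sylow.coe_subgroup_smul, Subgroup.mem_pointwise_smul_iff_inv_smul_mem] at hx
    have h1 := hc _ hx
    have e : ((MulAut.conj g)⁻¹ • x) = g⁻¹ * x * g := by
      rw [← map_inv, MulAut.smul_def, MulAut.conj_apply, inv_inv]
    rw [e] at h1
    calc x * (g * z * g⁻¹) = g * ((g⁻¹ * x * g) * z) * g⁻¹ := by group
      _ = g * (z * (g⁻¹ * x * g)) * g⁻¹ := by rw [h1]
      _ = g * z * g⁻¹ * x := by group

/-- a maximal 2-local with cyclic `Z(O₂)` -/
theorem struct (hCT : ∀ T : Subgroup G, IsPGroup 2 T → T ≠ ⊥ → CT 2 ↥(normalizer (T : Set G)))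
    {M : Subgroup G} (hM : IsMaximalTwoLocal M) (hcyc : IsCyclic ↥(center ↥(pCore 2 ↥M))) :
    ∃ z, orderOf z = 2 ∧ M = centralizer ({z} : Set G) ∧ ∃ P : Sylow 2 G, z ∈ (P : Subgroup G) ∧
      (∀ x ∈ (P : Subgroup G), x * z = z * x) ∧
      ∀ x ∈ (P : Subgroup G), orderOf x = 2 → (∀ y ∈ (P : Subgroup G), x * y = y * x) → x = z := by
  classical
  have : Fact (Nat.Prime 2) := ⟨Nat.prime_two⟩
  obtain ⟨⟨T, hTp, hT, hMT⟩, hmax⟩ := hM
  have hctM : CT 2 ↥M := by
    have := hCT T hTp hT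
    rwa [← hMT] at this
  -- `Q = O₂(M)` is nontrivial
  have hTM : T ≤ M := by rw [hMT]; exact le_normalizer
  have hTQ : T.subgroupOf M ≤ pCore 2 ↥M := by
    apply H1.Cores.le_pCore
    · apply Subgroup.normal_subgroupOf_of_le_normalizer
      rw [hMT]
    · exact hTp.comap_subtype
  have hQp : IsPGroup 2 ↥(pCore 2 ↥M) := H1.Cores.isPGroup_pCore 2
  have hQnt : Nontrivial ↥(pCore 2 ↥M) := by
    rw [Subgroup.nontrivial_iff_ne_bot]
    intro h
    rw [h, le_bot_iff, Subgroup.subgroupOf_eq_bot] at hTQ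
    apply hT
    rw [eq_bot_iff]
    exact hTQ le_rfl hTM
  have hZnt := hQp.center_nontrivial
  -- the involution
  have hZp : IsPGroup 2 ↥(center ↥(pCore 2 ↥M)) := hQp.to_subgroup _
  obtain ⟨n, hn, hc⟩ := hZp.nontrivial_iff_card.1 hZnt
  obtain ⟨z', hz'⟩ := exists_prime_orderOf_dvd_card' (G := ↥(center ↥(pCore 2 ↥M))) 2
    (by rw [hc]; exact dvd_pow_self 2 (by omega))
  set zM : M := ((z' : ↥(pCore 2 ↥M)) : M) with hzM
  have hzQ : zM ∈ pCore 2 ↥M := (z' : ↥(pCore 2 ↥M)).2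
  have hzc : ∀ y ∈ pCore 2 ↥M, y * zM = zM * y := by
    intro y hy
    exact congrArg Subtype.val (mem_center_iff.1 z'.2 ⟨y, hy⟩)
  have huq : ∀ w : M, w ∈ pCore 2 ↥M → (∀ y ∈ pCore 2 ↥M, y * w = w * y) → orderOf w = 2 → w = zM := by
    intro w hw hwc hw2
    have h1 : (⟨w, hw⟩ : ↥(pCore 2 ↥M)) ∈ center ↥(pCore 2 ↥M) := by
      rw [mem_center_iff]
      intro y
      exact Subtype.ext (hwc y y.2)
    have h2 := H5.InvTools.cyclic_involution_unique (x := (⟨⟨w, hw⟩, h1⟩ : ↥(center ↥(pCore 2 ↥M))))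
      (y := z') (by rw [Subgroup.orderOf_mk, Subgroup.orderOf_mk, hw2]) hz'
    exact congrArg (fun a : ↥(center ↥(pCore 2 ↥M)) => ((a : ↥(pCore 2 ↥M)) : M)) h2
  have hz2 : orderOf (zM : G) = 2 := by
    rw [Subgroup.orderOf_coe, hzM, Subgroup.orderOf_coe, Subgroup.orderOf_coe, hz']
  have hQn : (pCore 2 ↥M).Normal := inferInstance
  have hMC : ∀ x : M, x * zM = zM * x := by
    intro x
    have h1 : x * zM * x⁻¹ = zM := by
      apply huq _ (hQn.conj_mem _ hzQ x)
      · intro y hy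
        have h2 := hzc (x⁻¹ * y * x) (by
          have := hQn.conj_mem y hy x⁻¹
          rwa [inv_inv] at this)
        calc y * (x * zM * x⁻¹) = x * ((x⁻¹ * y * x) * zM) * x⁻¹ := by group
          _ = x * (zM * (x⁻¹ * y * x)) * x⁻¹ := by rw [h2]
          _ = x * zM * x⁻¹ * y := by group
      · rw [H5.Dihedral.orderOf_conj]
        rw [← Subgroup.orderOf_coe]; exact hz2
    exact mul_inv_eq_iff_eq_mul.1 h1
  have hle : M ≤ centralizer ({(zM : G)} : Set G) := by
    intro x hx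
    rw [mem_centralizer_singleton_iff]
    exact congrArg Subtype.val (hMC ⟨x, hx⟩)
  have hMeq := hmax _ (isTwoLocal_centralizer hz2) hle
  have hcQ : ∀ w : M, (∀ y ∈ pCore 2 ↥M, y * w = w * y) → orderOf w = 2 → w = zM := by
    intro w hwc hw2
    apply huq w _ hwc hw2
    apply hctM.centralizer_pCore_le
    rw [mem_centralizer_iff]
    exact hwc
  obtain ⟨R⟩ : Nonempty (Sylow 2 M) := inferInstance
  have hQR : pCore 2 ↥M ≤ (R : Subgroup M) := H1.Cores.pCore_le_sylow R
  set R' : Subgroup G := (R : Subgroup M).map M.subtype with hR'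
  have hR'p : IsPGroup 2 R' := R.2.map _
  have hR'M : R' ≤ M := map_subtype_le _
  obtain ⟨P, hRP⟩ := hR'p.exists_le_sylow
  have hzR : (zM : G) ∈ R' := ⟨zM, hQR hzQ, rfl⟩
  have hRP' : R' = (P : Subgroup G) := by
    apply H5.PLocal.eq_of_normalizer_inf_le P.2 hRP
    rintro g ⟨hgN, hgP⟩
    have hgz : g * zM * g⁻¹ = zM := by
      have h1 : g * zM * g⁻¹ ∈ R' := (mem_normalizer_iff.1 hgN _).1 hzR
      obtain ⟨w, hwR, hw⟩ := h1
      have hw' : (w : G) = g * zM * g⁻¹ := hw
      have h2 : w = zM := by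
        apply hcQ w
        · intro y hy
          apply Subtype.ext
          show (y : G) * (w : G) = w * y
          have h3 : g⁻¹ * (y : G) * g ∈ R' := by
            have := (mem_normalizer_iff''.1 hgN (y : G)).1 ⟨y, hQR hy, rfl⟩
            exact this
          have h4 : (g⁻¹ * (y : G) * g) * zM = zM * (g⁻¹ * (y : G) * g) :=
            mem_centralizer_singleton_iff.1 (hle (hR'M h3))
          rw [hw']
          calc (y : G) * (g * zM * g⁻¹) = g * ((g⁻¹ * y * g) * zM) * g⁻¹ := by group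
            _ = g * (zM * (g⁻¹ * y * g)) * g⁻¹ := by rw [h4]
            _ = g * zM * g⁻¹ * y := by group
        · rw [← Subgroup.orderOf_coe, hw', H5.Dihedral.orderOf_conj, hz2]
      rw [← hw', h2]
    have hgM : g ∈ M := by
      rw [← hMeq, mem_centralizer_singleton_iff]
      exact mul_inv_eq_iff_eq_mul.1 hgz
    have h5 : ((P : Subgroup G).subgroupOf M) = (R : Subgroup M) := by
      apply R.is_maximal' P.2.comap_subtype
      intro x hx
      exact hRP ⟨x, hx, rfl⟩
    have h6 : (⟨g, hgM⟩ : M) ∈ (R : Subgroup M) := by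
      rw [← h5, mem_subgroupOf]; exact hgP
    exact ⟨⟨g, hgM⟩, h6, rfl⟩
  refine ⟨zM, hz2, hMeq.symm, P, hRP' ▸ hzR, ?_, ?_⟩
  · intro x hx
    rw [← hRP'] at hx
    exact mem_centralizer_singleton_iff.1 (hle (hR'M hx))
  · intro x hx hx2 hxc
    have hxM : x ∈ M := hR'M (hRP' ▸ hx)
    have h1 := hcQ ⟨x, hxM⟩ (by
      intro y hy
      apply Subtype.ext
      exact (hxc (y : G) (hRP' ▸ ⟨y, hQR hy, rfl⟩)).symm) (by rw [Subgroup.orderOf_mk, hx2])
    exact congrArg Subtype.val h1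

/-- uniqueness of the central involution for all Sylow subgroups -/
theorem uniq_all {P₀ : Sylow 2 G} {z : G}
    (hu : ∀ x ∈ (P₀ : Subgroup G), orderOf x = 2 → (∀ y ∈ (P₀ : Subgroup G), x * y = y * x) → x = z)
    (P : Sylow 2 G) {x y : G} (hx : x ∈ (P : Subgroup G)) (hy : y ∈ (P : Subgroup G))
    (hx2 : orderOf x = 2) (hy2 : orderOf y = 2) (hxc : ∀ w ∈ (P : Subgroup G), w * x = x * w)
    (hyc : ∀ w ∈ (P : Subgroup G), w * y = y * w) : x = y := by
  have : Fact (Nat.Prime 2) := ⟨Nat.prime_two⟩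
  obtain ⟨g, hg⟩ := MulAction.exists_smul_eq G P P₀
  have hmem : ∀ w, w ∈ (P : Subgroup G) → g * w * g⁻¹ ∈ (P₀ : Subgroup G) := by
    intro w hw
    rw [← hg]
    show MulAut.conj g • w ∈ (MulAut.conj g • (P : Subgroup G))
    exact Subgroup.smul_mem_pointwise_smul _ _ _ hw
  have hmem' : ∀ w, w ∈ (P₀ : Subgroup G) → g⁻¹ * w * g ∈ (P : Subgroup G) := by
    intro w hw
    rw [← hg] at hw
    have h1 : w ∈ (MulAut.conj g • (P : Subgroup G)) := hw
    rw [Subgroup.mem_pointwise_smul_iff_inv_smul_mem] at h1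
    have e : ((MulAut.conj g)⁻¹ • w) = g⁻¹ * w * g := by
      rw [← map_inv, MulAut.smul_def, MulAut.conj_apply, inv_inv]
    rwa [e] at h1
  have key : ∀ x ∈ (P : Subgroup G), orderOf x = 2 → (∀ w ∈ (P : Subgroup G), w * x = x * w) →
      g * x * g⁻¹ = z := by
    intro x hx hx2 hxc
    apply hu _ (hmem x hx) (by rw [H5.Dihedral.orderOf_conj, hx2])
    intro y hy
    have h1 := hxc _ (hmem' y hy)
    calc g * x * g⁻¹ * y = g * (x * (g⁻¹ * y * g)) * g⁻¹ := by group
      _ = g * ((g⁻¹ * y * g) * x) * g⁻¹ := by rw [h1]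
      _ = y * (g * x * g⁻¹) := by group
  have h1 := (key x hx hx2 hxc).trans (key y hy hy2 hyc).symm
  exact mul_left_cancel (mul_right_cancel h1)

/-- Two distinct commuting central involutions of Sylow subgroups cannot exist. -/
theorem no_commuting {P₀ : Sylow 2 G} {z₀ : G}
    (hu : ∀ x ∈ (P₀ : Subgroup G), orderOf x = 2 → (∀ y ∈ (P₀ : Subgroup G), x * y = y * x) → x = z₀)
    (hloc : ∀ T : Subgroup G, IsPGroup 2 T → T ≠ ⊥ →
      ∃ z, K z ∧ normalizer (T : Set G) ≤ centralizer ({z} : Set G))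
    {a b : G} (ha : K a) (hb : K b) (hab : a * b = b * a) : a = b := by
  classical
  have : Fact (Nat.Prime 2) := ⟨Nat.prime_two⟩
  by_contra hne
  set 𝒯 : Set (Subgroup G) := {T | IsPGroup 2 T ∧ ∃ z z' : G, K z ∧ K z' ∧ z ≠ z' ∧ z ∈ T ∧ z' ∈ T ∧
    T ≤ centralizer {z} ∧ T ≤ centralizer {z'}} with h𝒯
  have ha1 : a ≠ 1 := by rintro rfl; have := ha.1; simp at this
  have hb1 : b ≠ 1 := by rintro rfl; have := hb.1; simp at this
  have haa := H5.Dihedral.mul_self ha.1
  have hbb := H5.Dihedral.mul_self hb.1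
  have h0 : ∃ T, T ∈ 𝒯 := by
    have hV := H21.Order168.card_V4 (hz := haa) (hb := hbb) (hc := hab.symm) ha1 hb1 hne
    refine ⟨H21.Order168.V4 a b haa hbb hab.symm, IsPGroup.of_card (n := 2) (by rw [hV]; norm_num),
      a, b, ha, hb, hne, H21.Order168.mem_V4.2 (Or.inr (Or.inl rfl)),
      H21.Order168.mem_V4.2 (Or.inr (Or.inr (Or.inl rfl))), ?_, ?_⟩
    · intro x hx
      rw [mem_centralizer_singleton_iff]
      rcases H21.Order168.mem_V4.1 hx with h | h | h | h
      · rw [h, one_mul, mul_one]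
      · rw [h]
      · rw [h, hab]
      · rw [h, mul_assoc, ← hab, ← mul_assoc]
    · intro x hx
      rw [mem_centralizer_singleton_iff]
      rcases H21.Order168.mem_V4.1 hx with h | h | h | h
      · rw [h, one_mul, mul_one]
      · rw [h, hab]
      · rw [h]
      · rw [h, ← mul_assoc b a b, ← hab]
  obtain ⟨T, hT⟩ := h0
  obtain ⟨T, -, hTmax⟩ := Set.Finite.exists_le_maximal (Set.toFinite 𝒯) hT
  obtain ⟨hTp, z, z', hz, hz', hzz, hzT, hzT', hTz, hTz'⟩ := hTmax.prop
  -- symmetric formulation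
  have key : ∀ z z' : G, K z → K z' → z ≠ z' → z ∈ T → z' ∈ T → T ≤ centralizer {z} →
      T ≤ centralizer {z'} → ∀ w, K w → normalizer (T : Set G) ≤ centralizer ({w} : Set G) → w ≠ z' →
      False := by
    intro z z' hz hz' hzz hzT hzT' hTz hTz' w hw hwN hwz
    have hTw : T ≤ centralizer {w} := le_normalizer.trans hwN
    -- `w ∈ T`
    have hwT : w ∈ T := by
      have hwc : ∀ x ∈ T, w * x = x * w := fun x hx =>
        (mem_centralizer_singleton_iff.1 (hTw hx)).symm
      have hTn : T ≤ normalizer ((zpowers w : Subgroup G) : Set G) := by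
        rw [normalizer_zpowers_invol hw.1]; exact hTw
      have h1 : T ⊔ zpowers w ∈ 𝒯 := by
        refine ⟨?_, z, z', hz, hz', hzz, mem_sup_left hzT, mem_sup_left hzT', ?_, ?_⟩
        · exact IsPGroup.to_sup_of_normal_right' hTp (H5.PLocal.isPGroup_zpowers_involution hw.1) hTn
        · apply sup_le hTz
          rw [zpowers_le, mem_centralizer_singleton_iff]
          exact hwc z hzT
        · apply sup_le hTz'
          rw [zpowers_le, mem_centralizer_singleton_iff]
          exact hwc z' hzT'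
      have h2 := hTmax.le_of_ge h1 le_sup_left
      exact h2 (mem_sup_right (mem_zpowers w))
    -- a Sylow subgroup of `C(z')` containing `T`
    obtain ⟨P, hzP, hPc⟩ := hz'.2
    have hPC : (P : Subgroup G) ≤ centralizer ({z'} : Set G) := fun x hx =>
      mem_centralizer_singleton_iff.2 (hPc x hx)
    obtain ⟨c, hc⟩ := H5.PLocal.exists_conj_le_sylow (P.subtype hPC)
      (hTp.comap_subtype : IsPGroup 2 (T.subgroupOf (centralizer ({z'} : Set G))))
    have hcT : ∀ x ∈ T, (c : G) * x * (c : G)⁻¹ ∈ (P : Subgroup G) := by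
      intro x hx
      have := hc ⟨x, hTz' hx⟩ hx
      exact this
    set P' : Sylow 2 G := (c : G)⁻¹ • P with hP'
    have hmemP' : ∀ x, x ∈ (P' : Subgroup G) ↔ (c : G) * x * (c : G)⁻¹ ∈ (P : Subgroup G) := by
      intro x
      rw [hP', Sylow.coe_subgroup_smul, Subgroup.mem_pointwise_smul_iff_inv_smul_mem]
      have e : ((MulAut.conj ((c : G)⁻¹))⁻¹ • x) = (c : G) * x * (c : G)⁻¹ := by
        rw [← map_inv, inv_inv, MulAut.smul_def, MulAut.conj_apply]
      rw [e]
    have hTP' : T ≤ (P' : Subgroup G) := fun x hx => (hmemP' x).2 (hcT x hx)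
    have hP'C : (P' : Subgroup G) ≤ centralizer ({z'} : Set G) := by
      intro x hx
      have h1 := hPC ((hmemP' x).1 hx)
      have h2 : x = (c : G)⁻¹ * ((c : G) * x * (c : G)⁻¹) * c := by group
      rw [h2]
      exact mul_mem (mul_mem (inv_mem c.2) h1) c.2
    have hTne : T ≠ (P' : Subgroup G) := by
      intro h
      apply hzz
      apply uniq_all hu P' (hTP' hzT) (hTP' hzT') hz.1 hz'.1
      · intro x hx
        rw [← h] at hx
        exact mem_centralizer_singleton_iff.1 (hTz hx)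
      · intro x hx
        exact mem_centralizer_singleton_iff.1 (hP'C hx)
    obtain ⟨g, hgP, hgT, hgN⟩ := H5.PLocal.exists_mem_normalizer_not_mem P'.2 (lt_of_le_of_ne hTP' hTne)
    have h1 : normalizer (T : Set G) ⊓ (P' : Subgroup G) ∈ 𝒯 := by
      refine ⟨P'.2.to_le inf_le_right, z', w, hz', hw, hwz.symm, ⟨le_normalizer hzT', hTP' hzT'⟩,
        ⟨le_normalizer hwT, hTP' hwT⟩, inf_le_right.trans hP'C, inf_le_left.trans hwN⟩
    have h2 := hTmax.le_of_ge h1 (le_inf le_normalizer hTP')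
    exact hgT (h2 ⟨hgN, hgP⟩)
  have hTbot : T ≠ ⊥ := by
    intro h
    rw [h, mem_bot] at hzT
    have := hz.1
    rw [hzT] at this; simp at this
  obtain ⟨w, hw, hwN⟩ := hloc T hTp hTbot
  by_cases h : w = z'
  · exact key z' z hz' hz hzz.symm hzT' hzT hTz' hTz w hw hwN (by rw [h]; exact hzz.symm)
  · exact key z z' hz hz' hzz hzT hzT' hTz hTz' w hw hwN h

theorem main [IsSimpleGroup G] (hG : ¬ IsMulCommutative G) (S : Sylow 2 G) (A : Subgroup G)
    (hA : Cfsg.IsSCN (S : Subgroup G) A) (hA3 : ¬ Cfsg.PRankLE 2 2 ↥A)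
    (hinv : ∀ X : Subgroup G, Odd (Nat.card ↥X) → (S : Subgroup G) ≤ Subgroup.normalizer (X : Set G) → X = ⊥)
    (hcon : ∀ T : Subgroup G, IsPGroup 2 ↥T → T ≠ ⊥ → Cfsg.IsPConstrained 2 ↥(Subgroup.normalizer (T : Set G))) :
    ∃ M : Subgroup G, Cfsg.IsMaximalTwoLocal M ∧ ¬ IsCyclic ↥(Subgroup.center ↥(Cfsg.pCore 2 ↥M)) := by
  classical
  have : Fact (Nat.Prime 2) := ⟨Nat.prime_two⟩
  by_contra hneg
  push Not at hneg
  obtain ⟨hAS, hSA, hCA⟩ := hA
  have hAab : ∀ a ∈ A, ∀ b ∈ A, a * b = b * a := by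
    intro a ha b hb
    rw [← hCA] at ha
    exact (mem_centralizer_iff.1 (mem_inf.1 ha).2 b hb).symm
  have hcon' : ∀ t : G, orderOf t = 2 → IsPConstrained 2 ↥(centralizer ({t} : Set G)) := by
    intro t ht
    rw [← normalizer_zpowers_invol ht]
    apply hcon _ (H5.PLocal.isPGroup_zpowers_involution ht)
    intro h
    rw [zpowers_eq_bot] at h
    rw [h] at ht; simp at ht
  have hcore : ∀ t : G, orderOf t = 2 → centralizerPPrimeCore 2 t = ⊥ := fun t ht =>
    core_eq_bot hcon' S hAab hSA hA3 hinv ht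
  have hCT : ∀ T : Subgroup G, IsPGroup 2 T → T ≠ ⊥ → CT 2 ↥(normalizer (T : Set G)) :=
    fun T hTp hT => CT_norm hcon' hcore hTp hT
  have hstr : ∀ T : Subgroup G, IsPGroup 2 T → T ≠ ⊥ → ∃ z, orderOf z = 2 ∧
      normalizer (T : Set G) ≤ centralizer ({z} : Set G) ∧ ∃ P : Sylow 2 G, z ∈ (P : Subgroup G) ∧
      (∀ x ∈ (P : Subgroup G), x * z = z * x) ∧
      ∀ x ∈ (P : Subgroup G), orderOf x = 2 → (∀ y ∈ (P : Subgroup G), x * y = y * x) → x = z := by
    intro T hTp hT
    obtain ⟨M, hNM, hM⟩ := exists_maximal (N := normalizer (T : Set G)) ⟨T, hTp, hT, rfl⟩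
    obtain ⟨z, hz2, hMz, h⟩ := struct hCT hM (hneg M hM)
    exact ⟨z, hz2, hMz ▸ hNM, h⟩
  have hloc : ∀ T : Subgroup G, IsPGroup 2 T → T ≠ ⊥ →
      ∃ z, K z ∧ normalizer (T : Set G) ≤ centralizer ({z} : Set G) := by
    intro T hTp hT
    obtain ⟨z, hz2, hN, P, hzP, hPc, -⟩ := hstr T hTp hT
    exact ⟨z, ⟨hz2, P, hzP, hPc⟩, hN⟩
  have hSbot : (S : Subgroup G) ≠ ⊥ := by
    intro h
    have h8 := eight_le_card_omg hAab hA3
    have h1 : Nat.card (omg A hAab) ∣ Nat.card (S : Subgroup G) := card_dvd_of_le (fun x hx => hAS hx.1)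
    rw [h, Subgroup.card_bot] at h1
    have := Nat.le_of_dvd one_pos h1
    omega
  obtain ⟨z, hz2, -, P, hzP, hPc, hu⟩ := hstr (S : Subgroup G) S.2 hSbot
  have hKz : K z := ⟨hz2, P, hzP, hPc⟩
  obtain ⟨N, hN, hodd, hNc⟩ := Cfsg.Agent.S0215.result P z hz2 hzP (by
    intro g hg
    exact no_commuting hu hloc (hKz.conj g) hKz (hPc _ hg))
  rcases hN.eq_bot_or_eq_top with h | h
  · -- `z` is central
    apply hG
    have hzc : z ∈ center G := by
      rw [mem_center_iff]
      intro g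
      have h1 := hNc g
      rw [h, mem_bot] at h1
      have h2 : z * g * z⁻¹ = g := mul_inv_eq_one.1 h1
      exact (mul_inv_eq_iff_eq_mul.1 h2).symm
    have hct : center G = ⊤ := by
      rcases (inferInstance : (center G).Normal).eq_bot_or_eq_top with h' | h'
      · rw [h', mem_bot] at hzc
        rw [hzc] at hz2; simp at hz2
      · exact h'
    exact ⟨⟨fun a b => (mem_center_iff.1 (hct ▸ mem_top a : a ∈ center G) b).symm⟩⟩
  · rw [h, Subgroup.card_top] at hodd
    have h1 : 2 ∣ Nat.card G := by rw [← hz2]; exact orderOf_dvd_natCard z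
    rw [← Nat.not_even_iff_odd, even_iff_two_dvd] at hodd
    exact hodd h1

end H59.EarlyTwo
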