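import Cfsg.Agent.Lib.H59.OddInv
import Cfsg.Agent.Lib.H30.Nil

set_option autoImplicit false

/-! A normal noncyclic elementary abelian subgroup of a 2-group: involutions `z` central and `v`
with centraliser of index at most 2. -/

namespace H59.OddInv

open H59.CharP H59.PCons Cfsg

attribute [local instance] fact2

/-- A nonidentity normal subgroup `W` of exponent two, of order more than 2, of a nilpotent group
contains a central involution `z` and an involution `v` with `gvg⁻¹ ∈ {v, zv}`. -/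
theorem exists_z_v {P : Type*} [Group P] [Finite P] [Group.IsNilpotent P] (W : Subgroup P) [W.Normal]
    (hW2 : ∀ w ∈ W, w ^ 2 = 1) (hW : 2 < Nat.card W) :
    ∃ z ∈ W, ∃ v ∈ W, z ≠ 1 ∧ v ≠ 1 ∧ v ≠ z ∧ z ∈ Subgroup.center P ∧
      ∀ g : P, g * v * g⁻¹ = v ∨ g * v * g⁻¹ = z * v := by
  have hWne : W ≠ ⊥ := by
    rintro rfl
    simp at hW
  have h1 := H30.Nil.inf_center_ne_bot W hWne
  obtain ⟨z, hz, hz1⟩ := (W ⊓ Subgroup.center P).ne_bot_iff_exists_ne_one.1 h1 |>.elim
    (fun a ha => ⟨a.1, a.2, fun h => ha (Subtype.ext h)⟩ :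
      ∀ a : ↥(W ⊓ Subgroup.center P), a ≠ 1 → ∃ z, z ∈ W ⊓ Subgroup.center P ∧ z ≠ 1)
  obtain ⟨hzW, hzc⟩ := Subgroup.mem_inf.1 hz
  have hZn : (Subgroup.zpowers z).Normal := by
    constructor
    intro n hn g
    obtain ⟨k, rfl⟩ := Subgroup.mem_zpowers_iff.1 hn
    have : g * z ^ k * g⁻¹ = z ^ k := by
      have h2 : z ^ k ∈ Subgroup.center P := (Subgroup.center P).zpow_mem hzc k
      rw [Subgroup.mem_center_iff.1 h2 g]; group
    rw [this]; exact hn
  have hZW : Subgroup.zpowers z ≤ W := by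
    rw [Subgroup.zpowers_le]; exact hzW
  have hcardZ : Nat.card (Subgroup.zpowers z) ≤ 2 := by
    rw [Nat.card_zpowers]
    exact Nat.le_of_dvd (by norm_num) (orderOf_dvd_of_pow_eq_one (hW2 z hzW))
  have hmap : W.map (QuotientGroup.mk' (Subgroup.zpowers z)) ≠ ⊥ := by
    intro h
    rw [Subgroup.map_eq_bot_iff, QuotientGroup.ker_mk'] at h
    have := Subgroup.card_le_of_le h
    omega
  have hmn : (W.map (QuotientGroup.mk' (Subgroup.zpowers z))).Normal :=
    Subgroup.Normal.map inferInstance _ (QuotientGroup.mk'_surjective _)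
  have hnil : Group.IsNilpotent (P ⧸ Subgroup.zpowers z) := inferInstance
  have h3 := H30.Nil.inf_center_ne_bot _ hmap
  obtain ⟨w, hw, hw1⟩ := (W.map (QuotientGroup.mk' (Subgroup.zpowers z)) ⊓
      Subgroup.center (P ⧸ Subgroup.zpowers z)).ne_bot_iff_exists_ne_one.1 h3 |>.elim
    (fun a ha => ⟨a.1, a.2, fun h => ha (Subtype.ext h)⟩ :
      ∀ a : ↥(W.map (QuotientGroup.mk' (Subgroup.zpowers z)) ⊓
      Subgroup.center (P ⧸ Subgroup.zpowers z)), a ≠ 1 → ∃ w, w ∈ W.map (QuotientGroup.mk' (Subgroup.zpowers z)) ⊓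
      Subgroup.center (P ⧸ Subgroup.zpowers z) ∧ w ≠ 1)
  obtain ⟨hwW, hwc⟩ := Subgroup.mem_inf.1 hw
  obtain ⟨v, hvW, rfl⟩ := Subgroup.mem_map.1 hwW
  have hvz : v ∉ Subgroup.zpowers z := by
    intro h
    exact hw1 ((QuotientGroup.eq_one_iff v).2 h)
  refine ⟨z, hzW, v, hvW, hz1, ?_, ?_, hzc, ?_⟩
  · rintro rfl; exact hvz (Subgroup.one_mem _)
  · rintro rfl; exact hvz (Subgroup.mem_zpowers _)
  · intro g
    have h4 := Subgroup.mem_center_iff.1 hwc (QuotientGroup.mk' _ g)
    rw [← map_mul, ← map_mul] at h4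
    have h5 : (v * g)⁻¹ * (g * v) ∈ Subgroup.zpowers z := QuotientGroup.eq.1 h4.symm
    have h6 : g * v * g⁻¹ * v⁻¹ ∈ Subgroup.zpowers z := by
      have h7 := hZn.conj_mem _ h5 (v * g)
      have h8 : v * g * ((v * g)⁻¹ * (g * v)) * (v * g)⁻¹ = g * v * g⁻¹ * v⁻¹ := by group
      rwa [h8] at h7
    obtain ⟨k, hk⟩ := Subgroup.mem_zpowers_iff.1 h6
    rcases Int.even_or_odd k with ⟨j, hj⟩ | ⟨j, hj⟩
    · left
      have : z ^ k = 1 := by
        rw [hj, ← two_mul, zpow_mul]
        have : z ^ (2 : ℤ) = 1 := by exact_mod_cast hW2 z hzW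
        rw [this, one_zpow]
      rw [this] at hk
      exact (mul_inv_eq_one.1 hk.symm)
    · right
      have : z ^ k = z := by
        rw [hj, zpow_add, zpow_mul]
        have : z ^ (2 : ℤ) = 1 := by exact_mod_cast hW2 z hzW
        rw [this, one_zpow, one_mul, zpow_one]
      rw [this] at hk
      exact (mul_inv_eq_iff_eq_mul.1 hk.symm)

/-- If `gvg⁻¹ ∈ {v, zv}` for all `g`, then the centraliser of `v` has index at most 2. -/
theorem card_le_two_mul {P : Type*} [Group P] [Finite P] (z v : P)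
    (h : ∀ g : P, g * v * g⁻¹ = v ∨ g * v * g⁻¹ = z * v) :
    Nat.card P ≤ 2 * Nat.card (Subgroup.centralizer ({v} : Set P)) := by
  have h1 := Subgroup.card_mul_index (Subgroup.centralizer ({v} : Set P))
  have h2 : (Subgroup.centralizer ({v} : Set P)).index ≤ 2 := by
    rw [← Subgroup.relIndex_top_right]
    by_cases hc : ∀ g : P, g * v * g⁻¹ = v
    · have : Subgroup.centralizer ({v} : Set P) = ⊤ := by
        rw [eq_top_iff]
        intro g _
        rw [Subgroup.mem_centralizer_singleton_iff]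
        exact (mul_inv_eq_iff_eq_mul.1 (hc g))
      rw [this]; simp
    · push Not at hc
      obtain ⟨g₀, hg₀⟩ := hc
      have hg₀' := (h g₀).resolve_left hg₀
      rw [Subgroup.relIndex_top_right]
      have : (Subgroup.centralizer ({v} : Set P)).index = 2 := by
        rw [Subgroup.index_eq_two_iff_exists_notMem_and']
        refine ⟨g₀⁻¹, ?_, ?_⟩
        · intro hmem
          have h5 : g₀ ∈ Subgroup.centralizer ({v} : Set P) := by
            have := Subgroup.inv_mem _ hmem
            simpa using this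
          rw [Subgroup.mem_centralizer_singleton_iff] at h5
          exact hg₀ (mul_inv_eq_iff_eq_mul.2 h5)
        · intro b
          by_cases hb : b * v * b⁻¹ = v
          · right
            rw [Subgroup.mem_centralizer_singleton_iff]
            exact mul_inv_eq_iff_eq_mul.1 hb
          · left
            have hb' := (h b).resolve_left hb
            rw [Subgroup.mem_centralizer_singleton_iff, ← mul_inv_eq_iff_eq_mul]
            calc g₀⁻¹ * b * v * (g₀⁻¹ * b)⁻¹ = g₀⁻¹ * (b * v * b⁻¹) * g₀ := by group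
              _ = g₀⁻¹ * (g₀ * v * g₀⁻¹) * g₀ := by rw [hb', hg₀']
              _ = v := by group
      omega
  calc Nat.card P = Nat.card (Subgroup.centralizer ({v} : Set P)) *
        (Subgroup.centralizer ({v} : Set P)).index := h1.symm
    _ ≤ Nat.card (Subgroup.centralizer ({v} : Set P)) * 2 := Nat.mul_le_mul_left _ h2
    _ = _ := by ring

end H59.OddInv
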