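import Cfsg.Agent.Lib.H59.OddInv2

set_option autoImplicit false

/-! No nontrivial odd order subgroup is normalised by a Sylow 2-subgroup with a normal
elementary abelian subgroup of order > 2, if involution centralisers are of characteristic 2. -/

namespace H59.OddInv

open H59.CharP H59.PCons Cfsg

attribute [local instance] fact2

variable {G : Type*} [Group G] [Finite G]

theorem eq_bot_of_odd (S : Sylow 2 G) (hCT : ∀ t : G, orderOf t = 2 → CT 2 ↥(Subgroup.centralizer ({t} : Set G)))
    (W : Subgroup ↥(S : Subgroup G)) [W.Normal] (hW2 : ∀ w ∈ W, w ^ 2 = 1) (hW : 2 < Nat.card W)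
    (X : Subgroup G) (hX : Odd (Nat.card X))
    (hSX : (S : Subgroup G) ≤ Subgroup.normalizer (X : Set G)) : X = ⊥ := by
  have hnil : Group.IsNilpotent ↥(S : Subgroup G) := S.2.isNilpotent
  obtain ⟨z, hzW, v, hvW, hz1, hv1, hvz, hzc, hconj⟩ := exists_z_v W hW2 hW
  have hcomm : z * v = v * z := (Subgroup.mem_center_iff.1 hzc v).symm
  have hz2 : z ^ 2 = 1 := hW2 z hzW
  have hv2 : v ^ 2 = 1 := hW2 v hvW
  have hzv2 : (z * v) ^ 2 = 1 := hW2 _ (W.mul_mem hzW hvW)
  have hzv1 : z * v ≠ 1 := by
    intro h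
    have h1 : z = v⁻¹ := mul_eq_one_iff_eq_inv.1 h
    have h2 : v⁻¹ = v := by
      rw [inv_eq_iff_mul_eq_one, ← sq]; exact hv2
    exact hvz (h1.trans h2).symm
  have ho : ∀ u : ↥(S : Subgroup G), u ^ 2 = 1 → u ≠ 1 → orderOf (u : G) = 2 := by
    intro u hu hu1
    rw [Subgroup.orderOf_coe]
    exact orderOf_eq_prime hu hu1
  -- the key: each involution of ⟨z,v⟩ has trivial centraliser on X
  have key : ∀ u : ↥(S : Subgroup G), u ^ 2 = 1 → u ≠ 1 →
      Nat.card (S : Subgroup G) ≤ 2 * Nat.card (Subgroup.centralizer ({u} : Set ↥(S : Subgroup G))) →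
      ∀ y ∈ X, (u : G) * y = y * u → y = 1 := by
    intro u hu hu1 hidx y hy hcy
    have hyC : y ∈ Subgroup.centralizer ({(u : G)} : Set G) := by
      rw [Subgroup.mem_centralizer_singleton_iff]; exact hcy.symm
    have h1 := eq_one_of_centralizes (Subgroup.centralizer ({(u : G)} : Set G)) (hCT u (ho u hu hu1)) S X hX hSX
      ((Subgroup.centralizer ({u} : Set ↥(S : Subgroup G))).map (S : Subgroup G).subtype)
      (by
        rintro x ⟨s, hs, rfl⟩
        exact s.2)
      (by
        rintro x ⟨s, hs, rfl⟩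
        rw [Subgroup.mem_centralizer_singleton_iff]
        have := Subgroup.mem_centralizer_singleton_iff.1 hs
        exact congrArg Subtype.val this)
      (by
        rw [Subgroup.card_map_of_injective (Subgroup.subtype_injective _)]
        exact hidx)
      ⟨y, hyC⟩ hy
    exact congrArg Subtype.val h1
  have hidx_v := card_le_two_mul z v hconj
  have hidx_z : Nat.card (S : Subgroup G) ≤ 2 * Nat.card (Subgroup.centralizer ({z} : Set ↥(S : Subgroup G))) := by
    have : Subgroup.centralizer ({z} : Set ↥(S : Subgroup G)) = ⊤ := by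
      rw [eq_top_iff]
      intro g _
      rw [Subgroup.mem_centralizer_singleton_iff]
      exact (Subgroup.mem_center_iff.1 hzc g)
    rw [this, Subgroup.card_top]
    omega
  have hidx_zv : Nat.card (S : Subgroup G) ≤ 2 * Nat.card (Subgroup.centralizer ({z * v} : Set ↥(S : Subgroup G))) := by
    apply card_le_two_mul z (z * v)
    intro g
    have hgz : g * z * g⁻¹ = z := by
      rw [mul_inv_eq_iff_eq_mul]; exact Subgroup.mem_center_iff.1 hzc g
    have h1 : g * (z * v) * g⁻¹ = z * (g * v * g⁻¹) := by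
      calc g * (z * v) * g⁻¹ = (g * z * g⁻¹) * (g * v * g⁻¹) := by group
        _ = _ := by rw [hgz]
    rcases hconj g with h | h
    · left; rw [h1, h]
    · right; rw [h1, h]
  have htX : ∀ u : ↥(S : Subgroup G), (u : G) ∈ Subgroup.normalizer (X : Set G) := fun u => hSX u.2
  have hsq : ∀ u : ↥(S : Subgroup G), u ^ 2 = 1 → (u : G) ^ 2 = 1 := fun u hu => by
    have := congrArg Subtype.val hu
    simpa using this
  have iz := inverts_of_fixedPointFree X (z : G) (hsq z hz2) (htX z) (key z hz2 hz1 hidx_z)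
  have iv := inverts_of_fixedPointFree X (v : G) (hsq v hv2) (htX v) (key v hv2 hv1 hidx_v)
  rw [Subgroup.eq_bot_iff_forall]
  intro y hy
  apply key (z * v) hzv2 hzv1 hidx_zv y hy
  have h1 : ((z * v : ↥(S : Subgroup G)) : G) * y * ((z * v : ↥(S : Subgroup G)) : G)⁻¹ = y := by
    have h2 := iv y hy
    have h3 := iz (y⁻¹) (X.inv_mem hy)
    rw [inv_inv] at h3
    rw [Subgroup.coe_mul]
    calc (z : G) * (v : G) * y * ((z : G) * (v : G))⁻¹
        = (z : G) * ((v : G) * y * (v : G)⁻¹) * (z : G)⁻¹ := by group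
      _ = y := by rw [h2, h3]
  exact mul_inv_eq_iff_eq_mul.1 h1

end H59.OddInv
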