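import Cfsg.Agent.Lib.H18.CharBasic

set_option autoImplicit false

/-!
Symmetric and alternating squares of characters.
-/

namespace H59.SymAlt

open Cfsg Matrix

universe u

variable {G : Type u} [Group G] {n : ℕ}

/-- matrix of a representation -/
noncomputable def M (ρ : Representation ℂ G (Fin n → ℂ)) (g : G) : Matrix (Fin n) (Fin n) ℂ :=
  LinearMap.toMatrix' (ρ g)

theorem M_mul (ρ : Representation ℂ G (Fin n → ℂ)) (g h : G) : M ρ (g * h) = M ρ g * M ρ h := by
  rw [M, M, M, map_mul]
  exact LinearMap.toMatrix'_comp _ _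

theorem M_one (ρ : Representation ℂ G (Fin n → ℂ)) : M ρ 1 = 1 := by simp [M]

theorem char_eq_trace (ρ : Representation ℂ G (Fin n → ℂ)) (g : G) :
    ρ.character g = (M ρ g).trace := by
  rw [Representation.character, M, LinearMap.trace_eq_matrix_trace ℂ (Pi.basisFun ℂ (Fin n))]
  rfl

/-- the map `A ↦ N A Nᵀ` -/
def cong (N : Matrix (Fin n) (Fin n) ℂ) :
    Matrix (Fin n) (Fin n) ℂ →ₗ[ℂ] Matrix (Fin n) (Fin n) ℂ where
  toFun A := N * A * Nᵀ
  map_add' A B := by rw [Matrix.mul_add, Matrix.add_mul]
  map_smul' c A := by simp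

/-- the map `A ↦ N Aᵀ Nᵀ` -/
def congT (N : Matrix (Fin n) (Fin n) ℂ) :
    Matrix (Fin n) (Fin n) ℂ →ₗ[ℂ] Matrix (Fin n) (Fin n) ℂ where
  toFun A := N * Aᵀ * Nᵀ
  map_add' A B := by rw [Matrix.transpose_add, Matrix.mul_add, Matrix.add_mul]
  map_smul' c A := by simp

/-- the representation on matrices -/
noncomputable def rep (ρ : Representation ℂ G (Fin n → ℂ)) :
    Representation ℂ G (Matrix (Fin n) (Fin n) ℂ) where
  toFun g := cong (M ρ g)
  map_one' := by
    ext A i j
    simp [cong, M_one]
  map_mul' g h := by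
    apply LinearMap.ext
    intro A
    simp [cong, M_mul, Matrix.mul_assoc]

theorem rep_apply (ρ : Representation ℂ G (Fin n → ℂ)) (g : G) (A : Matrix (Fin n) (Fin n) ℂ) :
    rep ρ g A = M ρ g * A * (M ρ g)ᵀ := rfl

theorem trace_cong (N : Matrix (Fin n) (Fin n) ℂ) :
    LinearMap.trace ℂ _ (cong N) = N.trace ^ 2 := by
  rw [LinearMap.trace_eq_matrix_trace ℂ (Matrix.stdBasis ℂ (Fin n) (Fin n)), Matrix.trace,
    Fintype.sum_prod_type, sq, Matrix.trace, Finset.sum_mul_sum]
  refine Finset.sum_congr rfl fun i _ => Finset.sum_congr rfl fun j _ => ?_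
  rw [Matrix.diag, LinearMap.toMatrix_apply, Matrix.stdBasis_eq_single]
  have h : ∀ A : Matrix (Fin n) (Fin n) ℂ,
      (Matrix.stdBasis ℂ (Fin n) (Fin n)).repr A (i, j) = A i j := fun A => rfl
  rw [h]
  change (N * (Matrix.single i j (1 : ℂ)) * Nᵀ : Matrix (Fin n) (Fin n) ℂ) i j = _
  rw [Matrix.mul_single_eq_updateCol_zero]
  simp [Matrix.mul_apply, Matrix.updateCol_apply, Matrix.diag]

theorem trace_congT (N : Matrix (Fin n) (Fin n) ℂ) :
    LinearMap.trace ℂ _ (congT N) = (N * N).trace := by
  rw [LinearMap.trace_eq_matrix_trace ℂ (Matrix.stdBasis ℂ (Fin n) (Fin n)), Matrix.trace,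
    Fintype.sum_prod_type, Matrix.trace]
  refine Finset.sum_congr rfl fun i _ => ?_
  rw [Matrix.diag, Matrix.mul_apply]
  refine Finset.sum_congr rfl fun j _ => ?_
  rw [Matrix.diag, LinearMap.toMatrix_apply, Matrix.stdBasis_eq_single]
  have h : ∀ A : Matrix (Fin n) (Fin n) ℂ,
      (Matrix.stdBasis ℂ (Fin n) (Fin n)).repr A (i, j) = A i j := fun A => rfl
  rw [h]
  change (N * (Matrix.single i j (1 : ℂ))ᵀ * Nᵀ : Matrix (Fin n) (Fin n) ℂ) i j = _
  rw [Matrix.transpose_single, Matrix.mul_single_eq_updateCol_zero]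
  simp [Matrix.mul_apply, Matrix.updateCol_apply]

/-- symmetric matrices -/
def symm (ρ : Representation ℂ G (Fin n → ℂ)) : Subrepresentation (rep ρ) where
  toSubmodule := { carrier := {A | Aᵀ = A}
                   zero_mem' := Matrix.transpose_zero
                   add_mem' := fun {a b} ha hb => by
                     change (a + b)ᵀ = a + b
                     rw [Matrix.transpose_add, show aᵀ = a from ha, show bᵀ = b from hb]
                   smul_mem' := fun c a ha => by
                     change (c • a)ᵀ = c • a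
                     rw [Matrix.transpose_smul, show aᵀ = a from ha] }
  apply_mem_toSubmodule := by
    intro g A hA
    change (rep ρ g A)ᵀ = rep ρ g A
    have hA' : Aᵀ = A := hA
    rw [rep_apply, Matrix.transpose_mul, Matrix.transpose_mul, Matrix.transpose_transpose, hA',
      Matrix.mul_assoc]

/-- skew-symmetric matrices -/
def skew (ρ : Representation ℂ G (Fin n → ℂ)) : Subrepresentation (rep ρ) where
  toSubmodule := { carrier := {A | Aᵀ = -A}
                   zero_mem' := by
                     change (0 : Matrix (Fin n) (Fin n) ℂ)ᵀ = -0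
                     simp
                   add_mem' := fun {a b} ha hb => by
                     change (a + b)ᵀ = -(a + b)
                     rw [Matrix.transpose_add, show aᵀ = -a from ha, show bᵀ = -b from hb]
                     abel
                   smul_mem' := fun c a ha => by
                     change (c • a)ᵀ = -(c • a)
                     rw [Matrix.transpose_smul, show aᵀ = -a from ha, smul_neg] }
  apply_mem_toSubmodule := by
    intro g A hA
    change (rep ρ g A)ᵀ = -rep ρ g A
    have hA' : Aᵀ = -A := hA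
    rw [rep_apply, Matrix.transpose_mul, Matrix.transpose_mul, Matrix.transpose_transpose, hA',
      Matrix.neg_mul, Matrix.mul_neg, Matrix.mul_assoc]

theorem mem_symm {ρ : Representation ℂ G (Fin n → ℂ)} {A : Matrix (Fin n) (Fin n) ℂ} :
    A ∈ (symm ρ).toSubmodule ↔ Aᵀ = A := Iff.rfl

theorem mem_skew {ρ : Representation ℂ G (Fin n → ℂ)} {A : Matrix (Fin n) (Fin n) ℂ} :
    A ∈ (skew ρ).toSubmodule ↔ Aᵀ = -A := Iff.rfl

theorem isCompl (ρ : Representation ℂ G (Fin n → ℂ)) :
    IsCompl (symm ρ).toSubmodule (skew ρ).toSubmodule := by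
  constructor
  · rw [Submodule.disjoint_def]
    intro A h1 h2
    rw [mem_symm] at h1
    rw [mem_skew, h1] at h2
    have h3 : (2 : ℂ) • A = 0 := by
      rw [two_smul]
      nth_rewrite 2 [h2]
      exact add_neg_cancel A
    exact (smul_eq_zero.1 h3).resolve_left two_ne_zero
  · rw [codisjoint_iff, eq_top_iff]
    intro A _
    rw [Submodule.mem_sup]
    refine ⟨(2 : ℂ)⁻¹ • (A + Aᵀ), ?_, (2 : ℂ)⁻¹ • (A - Aᵀ), ?_, ?_⟩
    · rw [mem_symm, Matrix.transpose_smul, Matrix.transpose_add, Matrix.transpose_transpose, add_comm]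
    · rw [mem_skew, Matrix.transpose_smul, Matrix.transpose_sub, Matrix.transpose_transpose,
        ← smul_neg, neg_sub]
    · rw [← smul_add, add_add_sub_cancel, ← two_smul ℂ A, smul_smul, inv_mul_cancel₀ two_ne_zero,
        one_smul]

theorem char_sub (ρ : Representation ℂ G (Fin n → ℂ)) (g : G) :
    (symm ρ).toRepresentation.character g - (skew ρ).toRepresentation.character g =
      ρ.character (g * g) := by
  rw [char_eq_trace, M_mul, ← trace_congT]
  have h1 : LinearMap.trace ℂ _ (((symm ρ).toRepresentation g).prodMap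
      (-((skew ρ).toRepresentation g))) = LinearMap.trace ℂ _ (congT (M ρ g)) := by
    rw [← LinearMap.trace_conj' (((symm ρ).toRepresentation g).prodMap
      (-((skew ρ).toRepresentation g))) (Submodule.prodEquivOfIsCompl _ _ (isCompl ρ))]
    congr 1
    apply LinearMap.ext
    intro A
    obtain ⟨⟨⟨a, ha⟩, ⟨b, hb⟩⟩, rfl⟩ := (Submodule.prodEquivOfIsCompl _ _ (isCompl ρ)).surjective A
    rw [mem_symm] at ha
    rw [mem_skew] at hb
    rw [LinearEquiv.conj_apply_apply, LinearEquiv.symm_apply_apply]
    simp only [LinearMap.prodMap_apply, Submodule.coe_prodEquivOfIsCompl', LinearMap.neg_apply,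
      Submodule.coe_neg]
    change rep ρ g a + -(rep ρ g b) = M ρ g * (a + b)ᵀ * (M ρ g)ᵀ
    rw [Matrix.transpose_add, ha, hb, rep_apply, rep_apply, Matrix.mul_add, Matrix.add_mul,
      Matrix.mul_neg, Matrix.neg_mul]
  have h2 : LinearMap.trace ℂ _ (-((skew ρ).toRepresentation g)) =
      -LinearMap.trace ℂ _ ((skew ρ).toRepresentation g) := by
    have h3 := map_smul (LinearMap.trace ℂ (skew ρ).toSubmodule) (-1 : ℂ)
      ((skew ρ).toRepresentation g)
    have h4 : -((skew ρ).toRepresentation g) = (-1 : ℂ) • ((skew ρ).toRepresentation g) := by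
      apply LinearMap.ext
      intro v
      ext1
      simp
    rw [h4, h3, smul_eq_mul, neg_one_mul]
  rw [← h1, LinearMap.trace_prodMap']
  refine Eq.trans ?_ (congrArg _ h2.symm)
  rw [← sub_eq_add_neg]
  rfl

theorem char_add (ρ : Representation ℂ G (Fin n → ℂ)) (g : G) :
    (symm ρ).toRepresentation.character g + (skew ρ).toRepresentation.character g =
      ρ.character g ^ 2 := by
  have h := congrFun (H18.CharBasic.char_split (rep ρ) (symm ρ) (skew ρ) (isCompl ρ)) g
  rw [Pi.add_apply] at h
  rw [← h, char_eq_trace, ← trace_cong]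
  rfl

/-- symmetric square -/
theorem isCharacter_sym {χ : G → ℂ} (h : IsCharacter G χ) :
    IsCharacter G (fun g => (χ g ^ 2 + χ (g * g)) / 2) := by
  obtain ⟨n, ρ, rfl⟩ := h
  have h1 := H18.CharBasic.isCharacter_of_rep (symm ρ).toRepresentation
  have h2 : (fun g => (ρ.character g ^ 2 + ρ.character (g * g)) / 2) =
      (symm ρ).toRepresentation.character := by
    funext g
    rw [← char_add, ← char_sub]
    ring
  rw [h2]
  exact h1

/-- alternating square -/
theorem isCharacter_alt {χ : G → ℂ} (h : IsCharacter G χ) :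
    IsCharacter G (fun g => (χ g ^ 2 - χ (g * g)) / 2) := by
  obtain ⟨n, ρ, rfl⟩ := h
  have h1 := H18.CharBasic.isCharacter_of_rep (skew ρ).toRepresentation
  have h2 : (fun g => (ρ.character g ^ 2 - ρ.character (g * g)) / 2) =
      (skew ρ).toRepresentation.character := by
    funext g
    rw [← char_add, ← char_sub]
    ring
  rw [h2]
  exact h1

end H59.SymAlt
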